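import Cfsg.Agent.DIM4.Irr
import Cfsg.Agent.DIM4.Stab
import Cfsg.Agent.H23.A6P

/-! `2.A₆` in `Sp₄(q)` permutes a simplex of six vectors of `W`. -/

set_option autoImplicit false
set_option linter.unusedSectionVars false

namespace Cfsg.Agent.DIM4

open Matrix Cfsg.Agent.H23.Six

variable {F : Type*} [Field F]

namespace Six

/-- conjugation -/
def cg (g : G4 F) : M4 F →ₗ[F] M4 F :=
  LinearMap.mulLeftRight F ((g : M4 F), ((g⁻¹ : G4 F) : M4 F))

theorem cg_apply (g : G4 F) (A : M4 F) : cg g A = (g : M4 F) * A * ((g⁻¹ : G4 F) : M4 F) := rfl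

theorem cg_mul (g k : G4 F) (A : M4 F) : cg (g * k) A = cg g (cg k A) := by
  simp only [cg_apply, _root_.mul_inv_rev, Units.val_mul, Matrix.mul_assoc]

theorem cg_one (A : M4 F) : cg 1 A = A := by simp [cg_apply]

theorem cg_neg (g : G4 F) (A : M4 F) : cg (-g) A = cg g A := by
  simp [cg_apply, inv_neg]

theorem cg_inv_cg (g : G4 F) (A : M4 F) : cg g⁻¹ (cg g A) = A := by
  rw [← cg_mul, inv_mul_cancel, cg_one]

theorem cg_of_comm {g : G4 F} {A : M4 F} (h : (g : M4 F) * A = A * g) : cg g A = A := by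
  rw [cg_apply, h, Matrix.mul_assoc, Units.mul_inv, Matrix.mul_one]

theorem cg_mem {g : G4 F} (hg : g ∈ Cfsg.spGL 2 F) {A : M4 F} (hA : A ∈ Wsp F) :
    cg g A ∈ Wsp F := conj_mem_W hg hA

theorem bW_cg (g : G4 F) (A B : M4 F) : bW (cg g A) (cg g B) = bW A B := bW_conj g A B

theorem bW_sum (u : M4 F) {ι : Type*} [Fintype ι] (v : ι → M4 F) :
    bW u (∑ i, v i) = ∑ i, bW u (v i) := map_sum (bL F u) v _

theorem eq_zero_of_span (h2 : (2 : F) ≠ 0) {R : Set (M4 F)} (hs : Wsp F ≤ Submodule.span F R)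
    {u : M4 F} (hu : u ∈ Wsp F) (h : ∀ v ∈ R, bW u v = 0) : u = 0 :=
  eq_zero_of_perp h2 hu fun _ hB =>
    (Submodule.span_le.2 (fun v hv => h v hv) : Submodule.span F R ≤ LinearMap.ker (bL F u)) (hs hB)

/-- a vector of `W` perpendicular to four given ones -/
theorem exists_perp (h2 : (2 : F) ≠ 0) (a : Fin 4 → M4 F) :
    ∃ v ∈ Wsp F, v ≠ 0 ∧ ∀ i, bW (a i) v = 0 := by
  let f : Wsp F →ₗ[F] (Fin 4 → F) := LinearMap.pi fun i => (bL F (a i)).comp (Wsp F).subtype
  have h : LinearMap.ker f ≠ ⊥ := LinearMap.ker_ne_bot_of_finrank_lt (by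
    rw [finrank_Wsp h2, Module.finrank_fin_fun]; norm_num)
  obtain ⟨v, hv, h0⟩ := (Submodule.ne_bot_iff _).1 h
  exact ⟨v, v.2, fun e => h0 (Subtype.ext e), fun i => congrFun (LinearMap.mem_ker.1 hv) i⟩

/-- two skew matrices with scalar squares commute with a common vector of `W` -/
theorem exists_fix (h2 : (2 : F) ≠ 0) {A B : M4 F} {c d : F} (hA : adj A = -A) (hc : c ≠ 0)
    (hAA : A * A = c • (1 : M4 F)) (hB : adj B = -B) (hd : d ≠ 0) (hBB : B * B = d • (1 : M4 F)) :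
    ∃ v ∈ Wsp F, v ≠ 0 ∧ A * v = v * A ∧ B * v = v * B := by
  obtain ⟨x, -, -, -, -, -, hx, -⟩ := fix3 h2 hA hc hAA
  obtain ⟨y, -, -, -, -, -, hy, -⟩ := fix3 h2 hB hd hBB
  obtain ⟨v, hv, h0, h⟩ := exists_perp h2 ![x, A * x, y, B * y]
  exact ⟨v, hv, h0, (hx v hv).2 ⟨h 0, h 1⟩, (hy v hv).2 ⟨h 2, h 3⟩⟩

/-- the two kinds of elements of order three -/
theorem three_cases (h2 : (2 : F) ≠ 0) (h3 : (3 : F) ≠ 0) {g : G4 F} (hg : g ∈ Cfsg.spGL 2 F)
    (h : g ^ 3 = 1) (h1 : g ≠ 1) : (g : M4 F) + ((g⁻¹ : G4 F) : M4 F) = -1 ∨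
      ∃ A ∈ Wsp F, (g : M4 F) + ((g⁻¹ : G4 F) : M4 F) = (1 / 2 : F) • 1 + A ∧ 4 * qW A = 9 := by
  obtain ⟨x, hx⟩ : ∃ x : M4 F, x = g := ⟨_, rfl⟩
  have hx3 : x * x * x = 1 := by
    rw [hx, ← Units.val_mul, ← Units.val_mul, ← pow_three', h, Units.val_one]
  have hi : ((g⁻¹ : G4 F) : M4 F) = x * x := by
    rw [Units.inv_eq_of_mul_eq_one_left (hx ▸ hx3 : x * x * (g : M4 F) = 1)]
  have hθ : (x + x * x) * (x + x * x) = (x + x * x) + (2 : F) • 1 := by
    have : (x + x * x) * (x + x * x) = x * x + (x * x * x) * x + (x * x * x + x * x * x) := by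
      noncomm_ring
    rw [this, hx3, two_smul]
    noncomm_ring
  have hA := sub_trace_mem h2 (adj_add_inv hg)
  rw [hi, ← hx] at hA ⊢
  set c := (x + x * x).trace / 4
  set A := x + x * x - c • 1 with hAd
  have e : x + x * x = c • 1 + A := by rw [hAd]; abel
  have hAA := mul_self h2 hA
  have h4 : (2 * c - 1) • A = (c + 2 - c ^ 2 - qW A) • (1 : M4 F) := by
    rw [e] at hθ
    simp only [add_mul, mul_add, smul_mul_assoc, mul_smul_comm, one_mul, mul_one, hAA] at hθ
    linear_combination (norm := module) hθ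
  have h5 := eq_zero_of_scalar h2 (by rw [trace_smul, hA.2, smul_zero]) h4
  have h6 : c + 2 - c ^ 2 - qW A = 0 := by
    rw [h5] at h4
    exact (smul_eq_zero.1 h4.symm).resolve_right one_ne_zero
  rcases smul_eq_zero.1 h5 with h7 | h7
  · have hc : c = 1 / 2 := by field_simp; linear_combination h7
    refine Or.inr ⟨A, hA, by rw [e, hc], ?_⟩
    linear_combination -4 * h6 - (2 * c - 1) * h7
  · left
    have hq : qW A = 0 := by rw [h7]; simp [qW]
    rw [h7, add_zero] at e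
    have h8 : (c - 2) * (c + 1) = 0 := by linear_combination -h6 - hq
    rcases mul_eq_zero.1 h8 with h9 | h9
    · exfalso
      apply h1
      have hc : c = 2 := by linear_combination h9
      rw [hc] at e
      have h10 : x * x + 1 = (2 : F) • x := by
        have := congrArg (· * x) e
        simpa only [add_mul, hx3, smul_mul_assoc, one_mul] using this
      have h11 : (3 : F) • (x - 1) = 0 := by linear_combination (norm := module) e - h10
      exact Units.ext (hx.symm.trans (sub_eq_zero.1 ((smul_eq_zero.1 h11).resolve_left h3)))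
    · rw [e, show c = -1 by linear_combination h9, neg_one_smul]

/-- not all elements of a subgroup of order nine are of the second kind -/
theorem nine (h2 : (2 : F) ≠ 0) (h3 : (3 : F) ≠ 0) {g k : G4 F} (hc : g * k = k * g)
    {A B C D : M4 F} (hA : A ∈ Wsp F) (hB : B ∈ Wsp F) (hC : C ∈ Wsp F) (hD : D ∈ Wsp F)
    (eA : (g : M4 F) + ((g⁻¹ : G4 F) : M4 F) = (1 / 2 : F) • 1 + A)
    (eB : (k : M4 F) + ((k⁻¹ : G4 F) : M4 F) = (1 / 2 : F) • 1 + B)
    (eC : ((g * k : G4 F) : M4 F) + (((g * k)⁻¹ : G4 F) : M4 F) = (1 / 2 : F) • 1 + C)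
    (eD : ((g * k⁻¹ : G4 F) : M4 F) + (((g * k⁻¹)⁻¹ : G4 F) : M4 F) = (1 / 2 : F) • 1 + D)
    (qA : 4 * qW A = 9) (qB : 4 * qW B = 9) : False := by
  have hc' : Commute g k := hc
  have m (a b : G4 F) (h : Commute a b) : (a : M4 F) * b = b * a := by
    rw [← Units.val_mul, h.eq, Units.val_mul]
  have h1 : ((1 / 2 : F) • 1 + A) * ((1 / 2 : F) • 1 + B) =
      ((1 / 2 : F) • 1 + C) + ((1 / 2 : F) • 1 + D) := by
    rw [← eA, ← eB, ← eC, ← eD]
    simp only [_root_.mul_inv_rev, inv_inv, Units.val_mul, add_mul, mul_add]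
    rw [m _ _ hc'.inv_left, m _ _ hc'.inv_inv]
    abel
  have h4 : ((1 / 2 : F) • 1 + A) * ((1 / 2 : F) • 1 + B) =
      ((1 / 2 : F) • 1 + B) * ((1 / 2 : F) • 1 + A) := by
    rw [← eA, ← eB]
    simp only [add_mul, mul_add]
    rw [m _ _ hc', m _ _ hc'.inv_left, m _ _ hc'.inv_right, m _ _ hc'.inv_inv]
    abel
  have h5 : A * B = B * A := by
    simp only [add_mul, mul_add, smul_mul_assoc, mul_smul_comm, one_mul, mul_one] at h4
    linear_combination (norm := module) h4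
  have h6 := congrArg trace h1
  simp only [add_mul, mul_add, smul_mul_assoc, mul_smul_comm, one_mul, mul_one, trace_add,
    trace_smul, hA.2, hB.2, hC.2, hD.2, trace_one4, smul_eq_mul] at h6
  have h7 : 2 * bW A B = 3 := by
    rw [bW, mul_div_cancel₀ _ h2]
    field_simp at h6
    exact mul_left_cancel₀ (four_ne h2) (by linear_combination h6)
  have h8 := anti h2 hA hB
  rw [← h5] at h8
  have h9 : (A * B + A * B) * (A * B + A * B) = (4 : F) • ((A * A) * (B * B)) := by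
    have : A * B * (A * B) = A * A * (B * B) := by
      rw [Matrix.mul_assoc, ← Matrix.mul_assoc B, ← h5]; simp only [Matrix.mul_assoc]
    simp only [add_mul, mul_add, this]
    module
  rw [h8, mul_self h2 hA, mul_self h2 hB] at h9
  simp only [smul_mul_assoc, mul_smul_comm, one_mul, smul_smul] at h9
  have h10 := smul_left_injective F (one_ne_zero (α := M4 F)) h9
  have h11 : (2 : F) ^ 3 * 3 ^ 2 = 0 := by
    linear_combination -4 * h10 - (4 * qW B) * qA - 9 * qB + (2 * bW A B + 3) * h7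
  simp [h2, h3] at h11

end Six

end Cfsg.Agent.DIM4
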